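import Cfsg.Agent.H740.RatM.Perm
import Cfsg.Agent.H34.LB.MDef

/-!
# S4879, the Monster, `p = 11`: the values of the seven known characters at the axis involutions (helper878)

If `g` moves every axis `x` by a pair of colour `sq (c z x)` (`z` the axis of `g`), then the characters of degrees
`H34.LB.dg` of the permutation character on the axes have the values `H34.LB.v2` at `g`.
-/

set_option autoImplicit false
set_option maxRecDepth 100000

namespace Cfsg.Agent.H878.LB

open Cfsg Cfsg.Agent.MonsterX.InstData Cfsg.Agent.Characters.Core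
open Cfsg.Agent.H816.MEigL Cfsg.Agent.H816.MSch Cfsg.Agent.H816.MDeg Cfsg.Agent.H816.IMEig
open Cfsg.Agent.H145.BR Cfsg.Agent.H493.RatB Cfsg.Agent.H740.RatM
open scoped BigOperators

/-- The colours of the squares: `1A, 2A, 2B ↦ 1A`, `3A ↦ 3A`, `3C ↦ 3C`, `4A ↦ 2B`, `4B ↦ 2A`, `5A ↦ 5A`, `6A ↦ 3A`. -/
def sq : Fin 9 → Fin 9 := ![0, 0, 0, 3, 4, 2, 1, 7, 3]

/-- The displacement sum of an axis involution. -/
theorem sph_of_sq (ω : Fin 9 → ℂ) {g : ↥M.G} {z : XT} (h : ∀ x, c x (g • x) = sq (c z x)) :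
    sph ω g = ∑ j : Fin 9, (k j : ℂ) * ω (sq j) := by
  classical
  have := Fintype.ofFinite XT
  have e1 : sph ω g = ∑ x : XT, ω (sq (c z x)) := by
    unfold sph
    rw [finsum_eq_sum_of_fintype]
    exact Finset.sum_congr rfl fun x _ => by rw [h x]
  rw [e1, ← Finset.sum_fiberwise (s := (Finset.univ : Finset XT)) (g := fun x => c z x)
    (f := fun x => ω (sq (c z x)))]
  refine Finset.sum_congr rfl fun j _ => ?_
  have e2 : ∀ x ∈ (Finset.univ : Finset XT).filter (fun x => c z x = j), ω (sq (c z x)) = ω (sq j) := by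
    intro x hx
    rw [(Finset.mem_filter.1 hx).2]
  rw [Finset.sum_congr rfl e2, Finset.sum_const, nsmul_eq_mul]
  congr 2
  have e3 := kk_eq j
  rw [isCol.kk_eq b0 z j] at e3
  unfold Col.kk at e3
  rw [← e3, Nat.card_eq_fintype_card, Fintype.card_subtype]

/-- **The values of the seven known characters at the axis involutions.** -/
theorem exists_chars : ∃ χ : Fin 7 → IrrCharacter ↥M.G,
    (∀ n, (χ n : ↥M.G → ℂ) 1 = ((H34.LB.dg n : ℤ) : ℂ)) ∧ (∀ n, RatV (χ n : ↥M.G → ℂ)) ∧
      ∀ (g : ↥M.G) (z : XT), (∀ x, c x (g • x) = sq (c z x)) →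
        ∀ n, (χ n : ↥M.G → ℂ) g = ((H34.LB.v2 n : ℤ) : ℂ) := by
  obtain ⟨χ0, a0, b0, c0⟩ := exists_value dat_1
  obtain ⟨χ1, a1, b1, c1⟩ := exists_value dat_196883
  obtain ⟨χ2, a2, b2, c2⟩ := exists_value dat_842609326
  obtain ⟨χ3, a3, b3, c3⟩ := exists_value dat_36173193327999
  obtain ⟨χ4, a4, b4, c4⟩ := exists_value dat_1109944460516150
  obtain ⟨χ5, a5, b5, c5⟩ := exists_value dat_251098487132187500
  obtain ⟨χ6, a6, b6, c6⟩ := exists_value dat_47377503606648784400
  refine ⟨![χ0, χ1, χ2, χ3, χ4, χ5, χ6], ?_, ?_, ?_⟩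
  · intro i
    fin_cases i
    · exact a0.trans (by norm_num [H34.LB.dg])
    · exact a1.trans (by norm_num [H34.LB.dg])
    · exact a2.trans (by norm_num [H34.LB.dg])
    · exact a3.trans (by norm_num [H34.LB.dg])
    · exact a4.trans (by norm_num [H34.LB.dg])
    · exact a5.trans (by norm_num [H34.LB.dg])
    · exact a6.trans (by norm_num [H34.LB.dg])
  · intro i
    fin_cases i <;> assumption
  · intro g z h i
    have key : ∀ ω : Fin 9 → ℂ, sph ω g = (1 + 27143910000 + 11707448673375) * ω 0 +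
        (2031941058560000 + 64353605265653760000) * ω 3 + 91569524834304000 * ω 4 +
        1102935324621312000 * ω 2 + 1254793905192960000 * ω 1 + 30434513446055706624 * ω 7 := by
      intro ω
      rw [sph_of_sq ω h]
      simp [Fin.sum_univ_succ, sq, k, kL]
      ring
    fin_cases i
    · refine (c0 g).trans ?_
      rw [key]
      norm_num [H34.LB.v2, vec]
    · refine (c1 g).trans ?_
      rw [key]
      norm_num [H34.LB.v2, vec]
    · refine (c2 g).trans ?_
      rw [key]
      norm_num [H34.LB.v2, vec]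
    · refine (c3 g).trans ?_
      rw [key]
      norm_num [H34.LB.v2, vec]
    · refine (c4 g).trans ?_
      rw [key]
      norm_num [H34.LB.v2, vec]
    · refine (c5 g).trans ?_
      rw [key]
      norm_num [H34.LB.v2, vec]
    · refine (c6 g).trans ?_
      rw [key]
      norm_num [H34.LB.v2, vec]

end Cfsg.Agent.H878.LB
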